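import Cfsg.Agent.H342.EE.GenData
import Cfsg.Agent.ChevalleyStructure.OrthHyp

/-!
# The elements `a_r`, `b_r` generate `Ω₈⁺(4)` (helper342, S3384 T4b)
-/

set_option autoImplicit false

namespace Cfsg.Agent.H342.EE

open Cfsg Cfsg.Agent.H865.EE Cfsg.Agent.ChevalleyStructure.OrthHyp

/-- the other index of a hyperbolic pair -/
def br : Fin 4 ⊕ Fin 4 → Fin 4 ⊕ Fin 4 := Sum.elim Sum.inr Sum.inl

/-- the number of a root element -/
def sgN (i j : Fin 4 ⊕ Fin 4) (c : ℕ) : ℕ :=
  one + c * (4 ^ (8 * OD.ix j + OD.ix (br i)) + 4 ^ (8 * OD.ix i + OD.ix (br j)))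

/-- the numbers of the elements `a_r` -/
def nA : Fin 4 → ℕ := fun r => base.getD (7 - r) 0

/-- the numbers of the elements `b_r` -/
def nB : Fin 4 → ℕ := fun r => base.getD (3 - r) 0

theorem nA_spec : ∀ r : Fin 4, ∀ k < 64, ent (nA r) k = (OD.cA r).getD k 0 := by decide +kernel

theorem nB_spec : ∀ r : Fin 4, ∀ k < 64, ent (nB r) k = (OD.cB r).getD k 0 := by decide +kernel

theorem base_spec : ∀ N ∈ base, N = one ∨ (∃ r, N = nA r) ∨ ∃ r, N = nB r := by decide +kernel

theorem one_spec : ∀ a b : Fin 4 ⊕ Fin 4, ent one (8 * OD.ix a + OD.ix b) = if a = b then 1 else 0 := by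
  decide +kernel

theorem sgN_mem : ∀ i j : Fin 4 ⊕ Fin 4, j ≠ i → j ≠ br i → ∀ c < 4,
    sgN i j c ∈ base ∨ sgN i j c ∈ prog.map fun x => x.2.2 := by decide +kernel

theorem sgN_ent : ∀ i j : Fin 4 ⊕ Fin 4, j ≠ i → j ≠ br i → ∀ c < 4, ∀ a b : Fin 4 ⊕ Fin 4,
    ent (sgN i j c) (8 * OD.ix a + OD.ix b) =
      if a = b then 1 else if (a = j ∧ b = br i) ∨ (a = i ∧ b = br j) then c else 0 := by
  decide +kernel

theorem two_eq_zero {F : Type*} [Field F] {ω : F} (h : ω ^ 2 = ω + 1)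
    (hF : ∀ x : F, x = 0 ∨ x = 1 ∨ x = ω ∨ x = ω + 1) : (2 : F) = 0 := by
  rcases hF 2 with h2 | h2 | h2 | h2
  · exact h2
  · exact absurd (show (1 : F) = 0 by linear_combination h2) one_ne_zero
  · rw [← h2] at h
    exact absurd (show (1 : F) = 0 by linear_combination h) one_ne_zero
  · have h1 : ω = 1 := by linear_combination -h2
    rw [h1] at h
    exact absurd (show (1 : F) = 0 by linear_combination -h) one_ne_zero

theorem mat_eq {F : Type*} [Field F] (ω : F) {c : List ℕ} {N : ℕ} (hN : ∀ k < 64, ent N k = c.getD k 0) :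
    OD.mat ω c = matN ω N := by
  ext i j
  have hi : OD.ix i < 8 := by rcases i with i | i <;> simp only [OD.ix] <;> omega
  have hj : OD.ix j < 8 := by rcases j with j | j <;> simp only [OD.ix] <;> omega
  show OD.val ω _ = OD.val ω _
  rw [hN _ (by omega)]

theorem matN_one {F : Type*} [Field F] (ω : F) : matN ω one = 1 := by
  ext i j
  show OD.val ω _ = _
  rw [one_spec, Matrix.one_apply]
  split_ifs <;> rfl

/-- the elements `a_r`, `b_r` generate `Ω₈⁺(4)` -/
theorem gen {F : Type*} [Field F] {ω : F} (h : ω ^ 2 = ω + 1)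
    (hF : ∀ x : F, x = 0 ∨ x = 1 ∨ x = ω ∨ x = ω + 1)
    (K : Subgroup (isometryGroup F (quadFormPlus 4 F)))
    (hA : ∀ i, ∃ g ∈ K, ((g : Matrix.GeneralLinearGroup (Fin 4 ⊕ Fin 4) F) :
      Matrix (Fin 4 ⊕ Fin 4) (Fin 4 ⊕ Fin 4) F) = OD.mat ω (OD.cA i))
    (hB : ∀ i, ∃ g ∈ K, ((g : Matrix.GeneralLinearGroup (Fin 4 ⊕ Fin 4) F) :
      Matrix (Fin 4 ⊕ Fin 4) (Fin 4 ⊕ Fin 4) F) = OD.mat ω (OD.cB i)) :
    Omega F (quadFormPlus 4 F) ≤ K := by
  have h2 := two_eq_zero h hF
  -- the numbers of elements of `K`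
  let P : ℕ → Prop := fun N => ∃ g ∈ K, ((g : Matrix.GeneralLinearGroup (Fin 4 ⊕ Fin 4) F) :
      Matrix (Fin 4 ⊕ Fin 4) (Fin 4 ⊕ Fin 4) F) = matN ω N
  have P1 : P one := ⟨1, K.one_mem, by rw [matN_one]; rfl⟩
  have Pmul : ∀ A B C, P A → P B → chk A B C = true → P C := by
    rintro A B C ⟨g, hg, hgA⟩ ⟨g', hg', hgB⟩ hc
    refine ⟨g * g', K.mul_mem hg hg', ?_⟩
    rw [← matN_mul h h2 hc, ← hgA, ← hgB]
    rfl
  have Pb : ∀ N ∈ base, P N := by
    intro N hN
    rcases base_spec N hN with rfl | ⟨r, rfl⟩ | ⟨r, rfl⟩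
    · exact P1
    · obtain ⟨g, hg, hgA⟩ := hA r
      exact ⟨g, hg, by rw [hgA, mat_eq ω (nA_spec r)]⟩
    · obtain ⟨g, hg, hgB⟩ := hB r
      exact ⟨g, hg, by rw [hgB, mat_eq ω (nB_spec r)]⟩
  have Pp := run_sound P P1 Pmul prog base Pb run_prog
  -- all root elements lie in `K`
  have key : ∀ x ∈ (plusForm 4 F).gens ∅, x ∈ K.map (isometryGroup F (quadFormPlus 4 F)).subtype := by
    rintro x ⟨i, -, -, j, -, hji, hjb, t, hx⟩
    obtain ⟨c, hc, rfl⟩ : ∃ c < 4, OD.val ω c = t := by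
      rcases hF t with rfl | rfl | rfl | rfl
      · exact ⟨0, by norm_num, rfl⟩
      · exact ⟨1, by norm_num, rfl⟩
      · exact ⟨2, by norm_num, rfl⟩
      · exact ⟨3, by norm_num, rfl⟩
    have hjb' : j ≠ br i := hjb
    have hPN : P (sgN i j c) := by
      rcases sgN_mem i j hji hjb' c hc with hm | hm
      · exact Pb _ hm
      · obtain ⟨y, hy, hy'⟩ := List.mem_map.1 hm
        rw [← hy']
        exact Pp y hy
    obtain ⟨g, hg, hgN⟩ := hPN
    refine ⟨g, hg, ?_⟩
    apply ext_single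
    intro b
    rw [hx]
    show ((g : Matrix.GeneralLinearGroup (Fin 4 ⊕ Fin 4) F) :
      Matrix (Fin 4 ⊕ Fin 4) (Fin 4 ⊕ Fin 4) F).mulVec _ = _
    rw [hgN, Matrix.mulVec_single_one]
    ext a
    rw [HypForm.sgl_def]
    have e1 : (plusForm 4 F).B (Pi.single i 1) (Pi.single b 1) = if b = br i then 1 else 0 := by
      rw [HypForm.B_single _ i (Set.mem_univ _)]
      show (Pi.single b 1 : Fin 4 ⊕ Fin 4 → F) (br i) = _
      rw [Pi.single_apply]
      simp only [eq_comm]
    have e2 : (plusForm 4 F).B (OD.val ω c • Pi.single j 1) (Pi.single b 1) =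
        if b = br j then OD.val ω c else 0 := by
      rw [HypForm.B_smul, HypForm.B_single _ j (Set.mem_univ _)]
      show OD.val ω c * (Pi.single b 1 : Fin 4 ⊕ Fin 4 → F) (br j) = _
      rw [Pi.single_apply]
      simp only [eq_comm, mul_ite, mul_one, mul_zero]
    have e3 : (plusForm 4 F).Q (OD.val ω c • Pi.single j 1) = 0 := by
      rw [HypForm.Q_smul, HypForm.Q_single _ j (Set.mem_univ _), mul_zero]
    rw [e1, e2, e3, zero_mul, zero_smul, sub_zero]
    simp only [Pi.add_apply, Pi.sub_apply, Pi.smul_apply, smul_eq_mul, Matrix.col_apply, matN,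
      Matrix.of_apply, sgN_ent i j hji hjb' c hc, Pi.single_apply]
    have hib : i ≠ br j := by
      intro hh
      apply hjb'
      rw [hh]
      rcases j with j | j <;> rfl
    by_cases hab : a = b
    · subst hab
      have n1 : ¬ (a = br i ∧ a = j) := fun hh => hjb' (hh.2.symm.trans hh.1)
      have n2 : ¬ (a = br j ∧ a = i) := fun hh => hib (hh.2.symm.trans hh.1)
      have z1 : (if a = br i then (1 : F) else 0) * (OD.val ω c * if a = j then 1 else 0) = 0 := by
        by_cases h1 : a = br i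
        · rw [if_neg (fun hh => n1 ⟨h1, hh⟩), mul_zero, mul_zero]
        · rw [if_neg h1, zero_mul]
      have z2 : (if a = br j then OD.val ω c else 0) * (if a = i then (1 : F) else 0) = 0 := by
        by_cases h1 : a = br j
        · rw [if_neg (fun hh => n2 ⟨h1, hh⟩), mul_zero]
        · rw [if_neg h1, zero_mul]
      rw [z1, z2, if_pos rfl, if_pos rfl]
      simp [OD.val]
    · rw [if_neg hab, if_neg hab]
      by_cases h1 : a = j ∧ b = br i
      · rw [if_pos (Or.inl h1), if_pos h1.1, if_pos h1.2, if_neg (fun hh => hji (h1.1.symm.trans hh))]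
        simp
      · by_cases h3 : a = i ∧ b = br j
        · have n1 : ¬ (a = j) := fun hh => hji (hh.symm.trans h3.1)
          rw [if_pos (Or.inr h3), if_pos h3.1, if_pos h3.2, if_neg n1]
          linear_combination OD.val ω c * h2
        · rw [if_neg (fun hh => hh.elim h1 h3)]
          have z1 : (if b = br i then (1 : F) else 0) * (OD.val ω c * if a = j then 1 else 0) = 0 := by
            by_cases h4 : b = br i
            · rw [if_neg (fun hh => h1 ⟨hh, h4⟩), mul_zero, mul_zero]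
            · rw [if_neg h4, zero_mul]
          have z2 : (if b = br j then OD.val ω c else 0) * (if a = i then (1 : F) else 0) = 0 := by
            by_cases h4 : b = br j
            · rw [if_neg (fun hh => h3 ⟨hh, h4⟩), mul_zero]
            · rw [if_neg h4, zero_mul]
          rw [z1, z2]
          simp [OD.val]
  rw [omega_plus 4 (by norm_num)]
  intro x hx
  have hx' : (x : Matrix.GeneralLinearGroup (Fin 4 ⊕ Fin 4) F) ∈
      K.map (isometryGroup F (quadFormPlus 4 F)).subtype :=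
    (Subgroup.closure_le _).2 key hx
  obtain ⟨y, hy, hyx⟩ := hx'
  rwa [← Subtype.ext hyx]

end Cfsg.Agent.H342.EE
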