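import Cfsg.Agent.H865.EE.OData
import Cfsg.Agent.H986.EqD.OdVal
import Mathlib.Tactic

/-!
# Arithmetic of `8 × 8` matrices over the field of 4 elements, packed into natural numbers (helper342, S3384)
-/

set_option autoImplicit false

namespace Cfsg.Agent.H342.EE

open Cfsg.Agent.H865.EE

/-- the entry at position `k` -/
def ent (N k : ℕ) : ℕ := N / 4 ^ k % 4

/-- the product of two codes -/
def mul4 (a b : ℕ) : ℕ := 2625168384 / 4 ^ (4 * a + b) % 4

/-- the entry `i j` of the product -/
def dot (A B i j : ℕ) : ℕ :=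
  (((mul4 (ent A (8 * i)) (ent B j) ^^^ mul4 (ent A (8 * i + 1)) (ent B (8 + j))) ^^^
    (mul4 (ent A (8 * i + 2)) (ent B (16 + j)) ^^^ mul4 (ent A (8 * i + 3)) (ent B (24 + j)))) ^^^
  ((mul4 (ent A (8 * i + 4)) (ent B (32 + j)) ^^^ mul4 (ent A (8 * i + 5)) (ent B (40 + j))) ^^^
    (mul4 (ent A (8 * i + 6)) (ent B (48 + j)) ^^^ mul4 (ent A (8 * i + 7)) (ent B (56 + j)))))

/-- the check that `C` is the product of `A` and `B` -/
def chk (A B C : ℕ) : Bool :=
  (List.range 64).all fun k => Nat.beq (dot A B (k / 8) (k % 8)) (ent C k)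

/-- the matrix with a given number -/
def matN {F : Type*} [Field F] (ω : F) (N : ℕ) : Matrix (Fin 4 ⊕ Fin 4) (Fin 4 ⊕ Fin 4) F :=
  Matrix.of fun i j => OD.val ω (ent N (8 * OD.ix i + OD.ix j))

theorem mul4_tab : ∀ a < 4, ∀ b < 4, mul4 a b = if a = 0 ∨ b = 0 then 0 else (a + b - 2) % 3 + 1 := by
  decide +kernel

theorem ent_lt (N k : ℕ) : ent N k < 4 := Nat.mod_lt _ (by norm_num)

theorem mul4_lt (a b : ℕ) : mul4 a b < 4 := Nat.mod_lt _ (by norm_num)

theorem xor_lt' {a b : ℕ} (ha : a < 4) (hb : b < 4) : a ^^^ b < 4 :=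
  Nat.xor_lt_two_pow (n := 2) ha hb

section

variable {F : Type*} [Field F] {ω : F} (h : ω ^ 2 = ω + 1) (h2 : (2 : F) = 0)

include h2 in
theorem val_xor {a b : ℕ} (ha : a < 4) (hb : b < 4) : OD.val ω (a ^^^ b) = OD.val ω a + OD.val ω b := by
  interval_cases a <;> interval_cases b <;> simp only [Nat.zero_xor, Nat.xor_zero, Nat.xor_self,
    show (1 : ℕ) ^^^ 2 = 3 from rfl, show (1 : ℕ) ^^^ 3 = 2 from rfl, show (2 : ℕ) ^^^ 1 = 3 from rfl,
    show (2 : ℕ) ^^^ 3 = 1 from rfl, show (3 : ℕ) ^^^ 1 = 2 from rfl, show (3 : ℕ) ^^^ 2 = 1 from rfl,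
    OD.val] <;>
  (first | ring1 | linear_combination (-1 : F) * h2 | linear_combination (-ω) * h2 |
    linear_combination (-ω - 1) * h2)

include h h2 in
theorem val_mul {a b : ℕ} (ha : a < 4) (hb : b < 4) : OD.val ω (mul4 a b) = OD.val ω a * OD.val ω b := by
  rw [mul4_tab a ha b hb]
  interval_cases a <;> interval_cases b <;> simp [OD.val] <;>
  (first | ring1 | linear_combination (-1 : F) * h | linear_combination (-1 : F) * h - ω * h2 |
    linear_combination (-1 : F) * h - (ω + 1) * h2)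

include h h2 in
theorem val_dot (A B i j : ℕ) : OD.val ω (dot A B i j) =
    (OD.val ω (ent A (8 * i)) * OD.val ω (ent B j) + OD.val ω (ent A (8 * i + 1)) * OD.val ω (ent B (8 + j)) +
      (OD.val ω (ent A (8 * i + 2)) * OD.val ω (ent B (16 + j)) +
        OD.val ω (ent A (8 * i + 3)) * OD.val ω (ent B (24 + j)))) +
    (OD.val ω (ent A (8 * i + 4)) * OD.val ω (ent B (32 + j)) +
      OD.val ω (ent A (8 * i + 5)) * OD.val ω (ent B (40 + j)) +
      (OD.val ω (ent A (8 * i + 6)) * OD.val ω (ent B (48 + j)) +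
        OD.val ω (ent A (8 * i + 7)) * OD.val ω (ent B (56 + j)))) := by
  have m := mul4_lt
  have x := @xor_lt'
  unfold dot
  rw [val_xor h2 (x (x (m _ _) (m _ _)) (x (m _ _) (m _ _))) (x (x (m _ _) (m _ _)) (x (m _ _) (m _ _))),
    val_xor h2 (x (m _ _) (m _ _)) (x (m _ _) (m _ _)), val_xor h2 (x (m _ _) (m _ _)) (x (m _ _) (m _ _)),
    val_xor h2 (m _ _) (m _ _), val_xor h2 (m _ _) (m _ _), val_xor h2 (m _ _) (m _ _),
    val_xor h2 (m _ _) (m _ _)]
  simp only [val_mul h h2 (ent_lt _ _) (ent_lt _ _)]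

include h h2 in
theorem matN_mul {A B C : ℕ} (hc : chk A B C = true) : matN ω A * matN ω B = matN ω C := by
  ext i j
  have hi : OD.ix i < 8 := by rcases i with i | i <;> simp only [OD.ix] <;> omega
  have hj : OD.ix j < 8 := by rcases j with j | j <;> simp only [OD.ix] <;> omega
  have hk := List.all_eq_true.1 hc (8 * OD.ix i + OD.ix j) (List.mem_range.2 (by omega))
  have hk' := Nat.eq_of_beq_eq_true hk
  rw [show (8 * OD.ix i + OD.ix j) / 8 = OD.ix i by omega,
    show (8 * OD.ix i + OD.ix j) % 8 = OD.ix j by omega] at hk'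
  show _ = OD.val ω (ent C (8 * OD.ix i + OD.ix j))
  rw [← hk', val_dot h h2, Matrix.mul_apply, Fintype.sum_sum_type, Fin.sum_univ_four, Fin.sum_univ_four]
  simp only [matN, Matrix.of_apply, OD.ix, Fin.val_zero, Fin.val_one, Fin.val_two,
    show ((3 : Fin 4) : ℕ) = 3 from rfl]
  norm_num
  ring1

end

/-! ### Straight-line programs -/

/-- the number of the identity matrix -/
def one : ℕ := 85070916250026219054240312625736187905

/-- verification of a straight-line program; `vals` = the numbers obtained so far -/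
def run : List ℕ → List (ℕ × ℕ × ℕ) → Bool
  | _, [] => true
  | vals, (i, j, N) :: r =>
    chk (vals.getD i one) (vals.getD j one) N && run (N :: vals) r

theorem run_sound (P : ℕ → Prop) (h0 : P one)
    (hmul : ∀ A B C, P A → P B → chk A B C = true → P C) :
    ∀ (ins : List (ℕ × ℕ × ℕ)) (vals : List ℕ), (∀ N ∈ vals, P N) → run vals ins = true →
      ∀ x ∈ ins, P x.2.2 := by
  intro ins
  induction ins with
  | nil => intro _ _ _ x hx; simp at hx
  | cons a r ih =>
    obtain ⟨i, j, N⟩ := a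
    intro vals hv hr x hx
    simp only [run, Bool.and_eq_true] at hr
    have hget : ∀ k, P (vals.getD k one) := by
      intro k
      by_cases hk : k < vals.length
      · rw [List.getD_eq_getElem _ _ hk]
        exact hv _ (List.getElem_mem hk)
      · rw [List.getD_eq_default _ _ (by omega)]
        exact h0
    have hN : P N := hmul _ _ _ (hget i) (hget j) hr.1
    rcases List.mem_cons.1 hx with rfl | hx
    · exact hN
    · refine ih (N :: vals) ?_ hr.2 x hx
      intro M hM
      rcases List.mem_cons.1 hM with rfl | hM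
      · exact hN
      · exact hv M hM

end Cfsg.Agent.H342.EE
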